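import Cfsg.Agent.Lib.HallHigman.Quadratic
import Cfsg.Agent.Lib.HallHigman.PLength
import Cfsg.Agent.S0065
import Cfsg.Agent.Lib.LocalChar.Core

set_option autoImplicit false

/-! The bound of the `p`-length by the derived length of a Sylow subgroup, for odd `p`. -/

namespace Cfsg.Agent.Lib.HallHigman

open Cfsg
open scoped commutatorElement

universe u v

variable {G : Type u} [Group G]

/-- The derived series of a subgroup, inside the ambient group. -/
def dser (R : Subgroup G) : ℕ → Subgroup G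
  | 0 => R
  | n + 1 => ⁅dser R n, dser R n⁆

theorem dser_map {H : Type v} [Group H] (f : G →* H) (R : Subgroup G) :
    ∀ n, (dser R n).map f = dser (R.map f) n
  | 0 => rfl
  | n + 1 => by simp only [dser, Subgroup.map_commutator, dser_map f R n]

theorem dser_mono {R S : Subgroup G} (h : R ≤ S) : ∀ n, dser R n ≤ dser S n
  | 0 => h
  | n + 1 => Subgroup.commutator_mono (dser_mono h n) (dser_mono h n)

theorem map_subtype_derivedSeries (R : Subgroup G) : ∀ n, (derivedSeries R n).map R.subtype = dser R n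
  | 0 => by rw [derivedSeries_zero, ← MonoidHom.range_eq_map, Subgroup.range_subtype]; rfl
  | n + 1 => by rw [derivedSeries_succ, Subgroup.map_commutator, map_subtype_derivedSeries R n]; rfl

theorem dser_le (R : Subgroup G) (n : ℕ) : dser R n ≤ R := by
  rw [← map_subtype_derivedSeries]; exact Subgroup.map_subtype_le _

theorem le_normalizer_dser (R : Subgroup G) : ∀ n, R ≤ Subgroup.normalizer (dser R n : Set G)
  | 0 => Subgroup.le_normalizer
  | n + 1 => by
    intro g hg
    have h := le_normalizer_dser R n hg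
    have hmap : (dser R n).map (MulAut.conj g).toMonoidHom = dser R n := by
      ext z
      rw [Subgroup.mem_map_equiv, Subgroup.mem_normalizer_iff.mp h ((MulAut.conj g).symm z)]
      simp [mul_assoc]
    rw [Subgroup.mem_normalizer_iff]
    intro z
    show z ∈ ⁅dser R n, dser R n⁆ ↔ g * z * g⁻¹ ∈ ⁅dser R n, dser R n⁆
    conv_rhs => rw [← (Subgroup.map_commutator (dser R n) (dser R n) _).trans
      (congrArg₂ (fun x y => ⁅x, y⁆) hmap hmap)]
    rw [Subgroup.mem_map_equiv]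
    simp [mul_assoc]

variable [Finite G] {p : ℕ} [hp : Fact p.Prime]

/-- The step: the last term of the derived series of a Sylow subgroup lies in `O_p`. -/
theorem dser_le_pCore [(pCore p G).Normal] (hp2 : p ≠ 2) (hsol : IsPSolvable p G) (hred : pPrimeCore p G = ⊥)
    (P : Sylow p G) (k : ℕ) (hk : dser (P : Subgroup G) (k + 1) = ⊥) :
    dser (P : Subgroup G) k ≤ pCore p G := by
  by_contra hA
  have hQP : pCore p G ≤ (P : Subgroup G) := LocalChar.pCore_le_sylow P
  have hcomm : ∀ a ∈ dser (P : Subgroup G) k, ∀ b ∈ dser (P : Subgroup G) k, ⁅a, b⁆ = 1 := fun a ha b hb =>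
    Subgroup.mem_bot.mp (hk ▸ (Subgroup.commutator_mem_commutator ha hb : ⁅a, b⁆ ∈ dser (P : Subgroup G) (k + 1)))
  rcases k with _ | k
  · refine hA fun x hx => LocalFusion.centralizer_pCore_le_of_isPSolvable hsol hred ?_
    rw [Subgroup.mem_centralizer_iff]
    intro v hv
    exact (commutatorElement_eq_one_iff_commute.mp (hcomm v (hQP hv) x hx)).eq
  set A := dser (P : Subgroup G) (k + 1) with hAdef
  set B := dser (P : Subgroup G) k with hBdef
  have hAP : A ≤ (P : Subgroup G) := dser_le _ _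
  have hBP : B ≤ (P : Subgroup G) := dser_le _ _
  have hnA : ∀ g ∈ (P : Subgroup G), ∀ a ∈ A, g * a * g⁻¹ ∈ A := fun g hg a ha =>
    (Subgroup.mem_normalizer_iff.mp (le_normalizer_dser _ _ hg) a).mp ha
  have hnB : ∀ g ∈ (P : Subgroup G), ∀ b ∈ B, g * b * g⁻¹ ∈ B := fun g hg b hb =>
    (Subgroup.mem_normalizer_iff.mp (le_normalizer_dser _ _ hg) b).mp hb
  obtain ⟨V, i1, i2, i3, π, ρ, hρi, hπs, hπadd, -, hρ⟩ := exists_quotientModule hsol hred
  have hQn : (pCore p G).Normal := inferInstance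
  have hπ1 : π 1 = 0 := by
    have := hπadd 1 1
    rw [mul_one] at this
    exact left_eq_add.mp this
  have hsub : ∀ (g : G) (v : pCore p G), ∃ c : pCore p G, (c : G) = ⁅g, (v : G)⁆ ∧
      (ρ (g : G ⧸ pCore p G) - 1) (π v) = π c := by
    intro g v
    refine ⟨MulAut.conjNormal g v * v⁻¹, by simp [commutatorElement_def], ?_⟩
    rw [LinearMap.sub_apply, Module.End.one_apply, hρ, sub_eq_iff_eq_add, ← hπadd, inv_mul_cancel_right]
  have hleft : ∀ g ∈ (P : Subgroup G), ∀ a ∈ A, ⁅a, g⁆ ∈ A := by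
    intro g hg a ha
    rw [show ⁅a, g⁆ = a * (g * a⁻¹ * g⁻¹) by rw [commutatorElement_def]; group]
    exact A.mul_mem ha (hnA g hg _ (A.inv_mem ha))
  have hkill : ∀ a ∈ A, ∀ c : pCore p G, (c : G) ∈ A → (ρ (a : G ⧸ pCore p G) - 1) (π c) = 0 := by
    intro a ha c hc
    obtain ⟨d, hd, he⟩ := hsub a c
    rw [he, show d = 1 from Subtype.ext (hd.trans (hcomm a ha _ hc)), hπ1]
  have hquad : ∀ a ∈ A, (ρ (a : G ⧸ pCore p G) - 1) ^ 2 = 0 := by
    intro a ha
    refine LinearMap.ext fun z => ?_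
    obtain ⟨v, rfl⟩ := hπs z
    obtain ⟨c, hc, he⟩ := hsub a v
    rw [sq, Module.End.mul_apply, he, hkill a ha c (hc ▸ hleft _ (hQP v.2) a ha), LinearMap.zero_apply]
  have hrel : ∀ a ∈ A, ∀ b ∈ B, (ρ (a : G ⧸ pCore p G) - 1) * (ρ (b : G ⧸ pCore p G) - 1) ^ 2 = 0 := by
    intro a ha b hb
    refine LinearMap.ext fun z => ?_
    obtain ⟨v, rfl⟩ := hπs z
    obtain ⟨c, hc, he⟩ := hsub b v
    obtain ⟨c', hc', he'⟩ := hsub b c
    have hcB : (c : G) ∈ B := by
      rw [hc, show ⁅b, (v : G)⁆ = b * ((v : G) * b⁻¹ * (v : G)⁻¹) by rw [commutatorElement_def]; group]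
      exact B.mul_mem hb (hnB _ (hQP v.2) _ (B.inv_mem hb))
    rw [Module.End.mul_apply, sq, Module.End.mul_apply, he, he',
      hkill a ha c' (hc' ▸ Subgroup.commutator_mem_commutator hb hcB), LinearMap.zero_apply]
  -- the image in `G ⧸ O_p`
  set mk := QuotientGroup.mk' (pCore p G) with hmk
  set Pb := (P : Subgroup G).map mk with hPb
  set Ab := A.map mk with hAb
  set Bb := B.map mk with hBb
  have hPbp : IsPGroup p Pb := P.isPGroup'.map _
  haveI hnil : Group.IsNilpotent Pb := hPbp.isNilpotent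
  have hAbn : (Ab.subgroupOf Pb).Normal := by
    refine ⟨fun n hn g => ?_⟩
    obtain ⟨x, hx, hxn⟩ := hn
    obtain ⟨y, hy, hyg⟩ := g.2
    exact ⟨y * x * y⁻¹, hnA y hy x hx, by
      show mk (y * x * y⁻¹) = (g : G ⧸ pCore p G) * (n : G ⧸ pCore p G) * (g : G ⧸ pCore p G)⁻¹
      rw [map_mul, map_mul, map_inv, hxn, hyg]; rfl⟩
  have hne : Ab.subgroupOf Pb ≠ ⊥ := by
    intro h
    refine hA fun x hx => (QuotientGroup.eq_one_iff x).mp ?_
    have h1 : (⟨mk x, Subgroup.mem_map_of_mem _ (hAP hx)⟩ : Pb) ∈ Ab.subgroupOf Pb := Subgroup.mem_map_of_mem _ hx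
    rw [h, Subgroup.mem_bot] at h1
    exact congrArg Subtype.val h1
  obtain ⟨⟨a0', ha0'⟩, ha0A, ha0ne⟩ :=
    (Subgroup.bot_or_exists_ne_one _).resolve_left (S0065.inf_center_ne_bot hAbn hne)
  obtain ⟨a, ha, rfl⟩ : a0' ∈ Ab := ha0A.1
  set a0 := mk a with ha0def
  have hcent : ∀ g ∈ Pb, Commute a0 g := fun g hg =>
    (congrArg Subtype.val (Subgroup.mem_center_iff.mp ha0A.2 ⟨g, hg⟩)).symm
  have ha01 : a0 ≠ 1 := fun h => ha0ne (Subtype.ext h)
  have hq0 : (ρ a0 - 1) ^ 2 = 0 := hquad a ha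
  have ha0p : a0 ^ p = 1 := by
    apply hρi
    have h1 := rho_sub_one_pow (p := p) (ρ a0) 1
    rw [pow_one, pow_eq_zero_of_le hp.out.two_le hq0] at h1
    rw [map_pow, map_one]
    exact sub_eq_zero.mp h1.symm
  -- a moved invariant Sylow subgroup of `O_{p'}`
  set K := pPrimeCore p (G ⧸ pCore p G) with hK
  have hKn : K.Normal := Subgroup.sSup_normal _ fun _ h => h.1
  have hKcop : (Nat.card K).Coprime p := Components.pPrimeCore_coprime p
  have ha0K : a0 ∉ Subgroup.centralizer (K : Set (G ⧸ pCore p G)) := fun h => by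
    have h2 := centralizer_pPrimeCore_le (PLength.isPSolvable_map (QuotientGroup.mk'_surjective _) hsol)
      PLength.pCore_quotient_pCore_eq_bot h
    have hord : orderOf a0 = p := orderOf_eq_prime ha0p ha01
    have h3 : p ∣ Nat.card K := (dvd_of_eq (hord.symm.trans (Subgroup.orderOf_mk a0 h2).symm)).trans
      (orderOf_dvd_natCard _)
    exact hp.out.coprime_iff_not_dvd.mp hKcop.symm h3
  have hPK : Pb ≤ Subgroup.normalizer (K : Set (G ⧸ pCore p G)) := by
    rw [Subgroup.normalizer_eq_top (H := K)]; exact le_top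
  have hcop : (Nat.card Pb).Coprime (Nat.card K) := by
    obtain ⟨m, hm⟩ := IsPGroup.iff_card.mp hPbp
    rw [hm]; exact hKcop.symm.pow_left m
  haveI : Group.IsSolvable Pb := inferInstance
  obtain ⟨q, hq, hqP⟩ : ∃ q : ℕ, q.Prime ∧ ∀ S : Sylow q K,
      Pb ≤ Subgroup.normalizer (((S : Subgroup K).map K.subtype : Subgroup (G ⧸ pCore p G)) : Set (G ⧸ pCore p G)) →
      ∃ u ∈ (S : Subgroup K).map K.subtype, a0 * u * a0⁻¹ ≠ u := by
    by_contra hall
    push Not at hall
    apply ha0K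
    have htop : (Subgroup.centralizer ({a0} : Set (G ⧸ pCore p G))).subgroupOf K = ⊤ := by
      refine Components.eq_top_of_forall_sylow_le fun q hq => ?_
      obtain ⟨S, hS, hfix⟩ := hall q hq
      refine ⟨S, fun x hx => ?_⟩
      rw [Subgroup.mem_subgroupOf, Subgroup.mem_centralizer_singleton_iff]
      exact (mul_inv_eq_iff_eq_mul.mp (hfix (x : G ⧸ pCore p G) ⟨x, hx, rfl⟩)).symm
    rw [Subgroup.mem_centralizer_iff]
    intro x hx
    have h1 : (⟨x, hx⟩ : K) ∈ (Subgroup.centralizer ({a0} : Set (G ⧸ pCore p G))).subgroupOf K :=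
      htop ▸ Subgroup.mem_top _
    rw [Subgroup.mem_subgroupOf, Subgroup.mem_centralizer_singleton_iff] at h1
    exact h1
  haveI := Fact.mk hq
  obtain ⟨S, hS⟩ := Coprime.exists_invariant_sylow hPK hcop (Or.inl inferInstance) q
  obtain ⟨u, hu, hune⟩ := hqP S hS
  set S' := (S : Subgroup K).map K.subtype with hS'def
  have hS'q : IsPGroup q S' := S.isPGroup'.map _
  have hqp : q ≠ p := by
    intro h
    obtain ⟨m, hm⟩ := IsPGroup.iff_card.mp S.isPGroup'
    rcases Nat.eq_zero_or_pos m with hm0 | hm0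
    · rw [hm0, pow_zero, Subgroup.card_eq_one] at hm
      rw [hS'def, hm, Subgroup.map_bot, Subgroup.mem_bot] at hu
      exact hune (by rw [hu, mul_one, mul_inv_cancel])
    · exact hp.out.coprime_iff_not_dvd.mp hKcop.symm
        ((dvd_of_eq h.symm).trans ((dvd_pow_self q hm0.ne').trans (hm ▸ Subgroup.card_subgroup_dvd_card (S : Subgroup K))))
  have ha0P : a0 ∈ Pb := Subgroup.mem_map_of_mem _ (hAP ha)
  obtain ⟨hp3, hq2⟩ : p = 3 ∧ q = 2 := by
    have hp3 : 3 ≤ p := by have := hp.out.two_le; omega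
    rcases theoremB hqp ρ S' hS'q a0 (n := 1) (r := 2) one_ne_zero (hS ha0P) (by rw [pow_one]; exact ha0p)
        ⟨u, hu, fun h => hune (hρi (by simpa using h))⟩ hq0 with h | ⟨-, n0, m, h1, h2, h3, h4, h5⟩
    · rw [pow_one] at h; omega
    · obtain rfl : n0 = 1 := by omega
      rw [pow_one] at h4
      rw [Nat.sub_self, pow_zero, one_mul, pow_one] at h5
      refine ⟨by omega, ?_⟩
      have h6 : q ∣ 2 := by
        rw [show (2 : ℕ) = p - 1 by omega, h4]
        exact dvd_pow_self q (by omega)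
      exact (Nat.prime_dvd_prime_iff_eq hq Nat.prime_two).mp h6
  subst hp3 hq2
  have hBbP : Bb ≤ Pb := Subgroup.map_mono hBP
  let C : Set (Subgroup (G ⧸ pCore 3 G)) := {U | U ≤ S' ∧ Bb ≤ Subgroup.normalizer (U : Set (G ⧸ pCore 3 G)) ∧
    ∃ w ∈ U, a0 * w * a0⁻¹ ≠ w}
  obtain ⟨T, ⟨hTS, hTB, w, hw, hwne⟩, hTmin⟩ :=
    WellFounded.has_min (wellFounded_lt (α := Subgroup (G ⧸ pCore 3 G))) C ⟨S', le_rfl, hBbP.trans hS, u, hu, hune⟩
  refine quadratic_false (ρ := ρ) (T := T) (B := Bb) (a := a0)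
    { pgroupT := hS'q.to_le hTS, pgroupB := hPbp.to_le hBbP, norm := hTB
      mem := ?_, central := fun b hb => hcent b (hBbP hb), cube := ha0p, quad := hq0, rel := ?_
      small := fun U hU hUB x hx => ?_, moves := ⟨w, hw, fun h => hwne (hρi h)⟩ }
  · rw [hBb, ← Subgroup.map_commutator]
    exact Subgroup.mem_map_of_mem _ ha
  · rintro _ ⟨b, hb, rfl⟩
    exact hrel a ha b hb
  · by_contra hxne
    exact hTmin U ⟨hU.le.trans hTS, hUB, x, hx, hxne⟩ hU

theorem pLengthLE_derivedLength {G : Type u} [Group G] [Finite G] (hp2 : p ≠ 2) (hsol : IsPSolvable p G) (d : ℕ)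
    (hd : ∀ P : Sylow p G, derivedSeries (P : Subgroup G) d = ⊥) : PLengthLE p d G := by
  let Φ : ∀ (H : Type u) [Group H], ℕ → Prop := fun H _ k => ∀ R : Subgroup H, IsPGroup p R → dser R k = ⊥
  have hΦ : Φ G d := fun R hR => by
    obtain ⟨P, hP⟩ := hR.exists_le_sylow
    rw [eq_bot_iff]
    refine (dser_mono hP d).trans ?_
    rw [← map_subtype_derivedSeries, hd P, Subgroup.map_bot]
  refine pLengthLE_induction Φ ?_ ?_ ?_ (Nat.card G) G d rfl hsol hΦ
  · intro H _ _ k N _ hH R hR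
    obtain ⟨T, hT⟩ := hR.exists_le_sylow
    obtain ⟨S, hS⟩ := Sylow.mapSurjective_surjective (QuotientGroup.mk'_surjective N) p T
    rw [eq_bot_iff]
    refine (dser_mono hT k).trans ?_
    rw [← hS, Sylow.coe_mapSurjective, ← dser_map, hH _ S.isPGroup', Subgroup.map_bot]
  · intro H _ _ hH hdvd
    obtain ⟨x, hx⟩ := exists_prime_orderOf_dvd_card' p hdvd
    have h1 : Subgroup.zpowers x = ⊥ := hH (Subgroup.zpowers x) (IsPGroup.of_card (n := 1) (by
      rw [Nat.card_zpowers, hx, pow_one]))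
    rw [Subgroup.zpowers_eq_bot] at h1
    rw [h1, orderOf_one] at hx
    exact hp.out.one_lt.ne hx
  · intro H _ _ _ k hHsol hred _ hH R hR
    obtain ⟨T, hT⟩ := hR.exists_le_sylow
    obtain ⟨S, hS⟩ := Sylow.mapSurjective_surjective (QuotientGroup.mk'_surjective (pCore p H)) p T
    rw [eq_bot_iff]
    refine (dser_mono hT k).trans ?_
    rw [← hS, Sylow.coe_mapSurjective, ← dser_map]
    refine (Subgroup.map_mono (dser_le_pCore hp2 hHsol hred S k (hH _ S.isPGroup'))).trans ?_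
    rw [le_bot_iff, Subgroup.map_eq_bot_iff, QuotientGroup.ker_mk']

end Cfsg.Agent.Lib.HallHigman
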