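import Cfsg.Agent.Lib.HallHigman.TheoremB

set_option autoImplicit false

/-! A central quadratic commutator of a 3-group cannot act on a 2-group. -/

namespace Cfsg.Agent.Lib.HallHigman

open scoped commutatorElement

universe u v w

variable {K : Type w} {G : Type u} {V : Type v} [Field K] [Group G] [AddCommGroup V] [Module K V]

theorem rho_inv_mul_self (ρ : G →* Module.End K V) (t : G) : ρ t⁻¹ * ρ t = 1 := by
  rw [← map_mul, inv_mul_cancel, map_one]

theorem rho_mul_inv_self (ρ : G →* Module.End K V) (t : G) : ρ t * ρ t⁻¹ = 1 := by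
  rw [← map_mul, mul_inv_cancel, map_one]

/-- Three pairwise non-isomorphic simple subspaces are independent. -/
theorem eq_zero_of_three {ρ : G →* Module.End K V} {T : Subgroup G} {W0 W1 W2 : Submodule K V}
    (h0 : SimpleSub ρ T W0) (h1 : SimpleSub ρ T W1) (h2 : SimpleSub ρ T W2) (n01 : ¬ IsoTo ρ T W1 W0)
    (n02 : ¬ IsoTo ρ T W0 W2) (n12 : ¬ IsoTo ρ T W1 W2) {x0 x1 x2 : V} (hx0 : x0 ∈ W0) (hx1 : x1 ∈ W1)
    (hx2 : x2 ∈ W2) (hsum : x0 + x1 + x2 = 0) : x0 = 0 := by
  classical
  have hdisj : ∀ {A B : Submodule K V}, SimpleSub ρ T A → SimpleSub ρ T B → ¬ IsoTo ρ T A B → A ⊓ B = ⊥ := by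
    intro A B hA hB hn
    have hi : Inv ρ T (A ⊓ B) := fun m hm v hv => ⟨hA.2.1 m hm v hv.1, hB.2.1 m hm v hv.2⟩
    refine (hA.2.2 _ inf_le_left hi).resolve_right fun h => hn ?_
    have hAB : A ≤ B := h ▸ inf_le_right
    rcases hB.2.2 A hAB hA.2.1 with h' | h'
    · exact absurd h' hA.1
    · rw [h']; exact IsoTo.refl B
  by_contra hne
  -- `W0` meets `W1 + W2`
  have hW0 : ∀ v ∈ W0, v ∈ W1 ⊔ W2 := by
    have hi : Inv ρ T (W0 ⊓ (W1 ⊔ W2)) := by
      rintro m hm v ⟨hv, hv'⟩
      refine ⟨h0.2.1 m hm v hv, ?_⟩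
      rw [SetLike.mem_coe, Submodule.mem_sup] at hv' ⊢
      obtain ⟨y, hy, z, hz, rfl⟩ := hv'
      exact ⟨ρ m y, h1.2.1 m hm y hy, ρ m z, h2.2.1 m hm z hz, (map_add _ _ _).symm⟩
    rcases h0.2.2 _ inf_le_left hi with h | h
    · refine absurd ((Submodule.mem_bot K).mp (h ▸ (⟨hx0, ?_⟩ : x0 ∈ W0 ⊓ (W1 ⊔ W2)))) hne
      rw [SetLike.mem_coe, Submodule.mem_sup]
      exact ⟨-x1, W1.neg_mem hx1, -x2, W2.neg_mem hx2, by
        rw [← sub_eq_zero, ← neg_eq_zero, ← hsum]; abel⟩
    · exact fun v hv => (h.ge hv).2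
  have hd := hdisj h1 h2 n12
  let e : (W1 × W2) →ₗ[K] V := W1.subtype.coprod W2.subtype
  have he : Function.Injective e := by
    rw [← LinearMap.ker_eq_bot, eq_bot_iff]
    rintro ⟨⟨y, hy⟩, ⟨z, hz⟩⟩ h
    rw [LinearMap.mem_ker] at h
    change y + z = 0 at h
    have hy0 : y = 0 := by
      have : y ∈ W1 ⊓ W2 := ⟨hy, by rw [eq_neg_of_add_eq_zero_left h]; exact W2.neg_mem hz⟩
      rwa [hd, Submodule.mem_bot] at this
    rw [hy0, zero_add] at h
    exact (Submodule.mem_bot K).mpr (Prod.ext (Subtype.ext hy0) (Subtype.ext h))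
  have hrange : ∀ v : W0, (v : V) ∈ LinearMap.range e := fun v => by
    obtain ⟨y, hy, z, hz, hyz⟩ := Submodule.mem_sup.mp (hW0 v v.2)
    exact ⟨(⟨y, hy⟩, ⟨z, hz⟩), hyz⟩
  let f : W0 →ₗ[K] W1 × W2 :=
    (LinearEquiv.ofInjective e he).symm.toLinearMap.comp (W0.subtype.codRestrict _ hrange)
  have hf : ∀ v : W0, ((f v).1 : V) + ((f v).2 : V) = v := fun v =>
    congrArg Subtype.val ((LinearEquiv.ofInjective e he).apply_symm_apply ⟨_, hrange v⟩)
  let f2 : W0 →ₗ[K] V := W2.subtype.comp ((LinearMap.snd K W1 W2).comp f)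
  have hf2 : f2 = 0 := by
    by_contra h
    refine n02 (isoTo_of_ne_zero h0 h2 f2 (fun v => SetLike.coe_mem _) (fun m hm v hv => ?_) h)
    show ((f ⟨ρ m v, hv⟩).2 : V) = ρ m ((f v).2 : V)
    have h3 : e (f ⟨ρ m v, hv⟩) = e (⟨ρ m ((f v).1 : V), h1.2.1 m hm _ (f v).1.2⟩,
        ⟨ρ m ((f v).2 : V), h2.2.1 m hm _ (f v).2.2⟩) := by
      show ((f ⟨ρ m v, hv⟩).1 : V) + ((f ⟨ρ m v, hv⟩).2 : V) = ρ m ((f v).1 : V) + ρ m ((f v).2 : V)
      rw [hf, ← map_add, hf]
    exact congrArg (fun z => ((Prod.snd z : W2) : V)) (he h3)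
  have hW01 : W0 ≤ W1 := fun v hv => by
    have h4 : ((f ⟨v, hv⟩).2 : V) = 0 := LinearMap.congr_fun hf2 ⟨v, hv⟩
    have h5 := hf ⟨v, hv⟩
    rw [h4, add_zero] at h5
    rw [← show ((f ⟨v, hv⟩).1 : V) = v from h5]
    exact SetLike.coe_mem _
  rcases h1.2.2 W0 hW01 h0.2.1 with h | h
  · exact h0.1 h
  · exact n01 (by rw [h]; exact IsoTo.refl W1)

/-- The data of the argument. -/
structure QuadraticData (ρ : G →* Module.End K V) (T B : Subgroup G) (a : G) : Prop where
  pgroupT : IsPGroup 2 T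
  pgroupB : IsPGroup 3 B
  norm : B ≤ Subgroup.normalizer (T : Set G)
  mem : a ∈ ⁅B, B⁆
  central : ∀ b ∈ B, Commute a b
  cube : a ^ 3 = 1
  quad : (ρ a - 1) ^ 2 = 0
  rel : ∀ b ∈ B, (ρ a - 1) * (ρ b - 1) ^ 2 = 0
  small : ∀ U : Subgroup G, U < T → B ≤ Subgroup.normalizer (U : Set G) → ∀ u ∈ U, a * u * a⁻¹ = u
  moves : ∃ u ∈ T, ρ (a * u * a⁻¹) ≠ ρ u

theorem isScalar_restr_iff {ρ : G →* Module.End K V} {H : Subgroup G} {W : Submodule K V} (h : Inv ρ H W) (m : H) :
    IsScalar (restr ρ H W h) m ↔ ∃ s : K, ∀ w ∈ W, ρ (m : G) w = s • w := by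
  constructor
  · rintro ⟨s, hs⟩
    exact ⟨s, fun w hw => congrArg Subtype.val (LinearMap.congr_fun hs ⟨w, hw⟩)⟩
  · rintro ⟨s, hs⟩
    exact ⟨s, LinearMap.ext fun w => Subtype.ext (hs w w.2)⟩

theorem quadratic_false_aux [IsAlgClosed K] [CharP K 3] (d : ℕ) :
    ∀ (G : Type u) [Group G] [Finite G] (V : Type v) [AddCommGroup V] [Module K V] [FiniteDimensional K V]
      (ρ : G →* Module.End K V)
      (T B : Subgroup G) (a : G), Module.finrank K V = d → QuadraticData ρ T B a → False := by
  haveI : Fact (Nat.Prime 2) := ⟨Nat.prime_two⟩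
  haveI : Fact (Nat.Prime 3) := ⟨Nat.prime_three⟩
  induction d using Nat.strong_induction_on with
  | _ d ih =>
  intro G _ _ V _ _ _ ρ T B a hd hdata
  classical
  obtain ⟨u0, hu0, hu0ne⟩ := hdata.moves
  have hBB : ⁅B, B⁆ ≤ B := Subgroup.commutator_le.mpr fun x hx y hy =>
    B.mul_mem (B.mul_mem (B.mul_mem hx hy) (B.inv_mem hx)) (B.inv_mem hy)
  have haB : a ∈ B := hBB hdata.mem
  have haT : a ∈ Subgroup.normalizer (T : Set G) := hdata.norm haB
  have hconjT : ∀ v ∈ T, a * v * a⁻¹ ∈ T := fun v hv => (Subgroup.mem_normalizer_iff.mp haT v).mp hv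
  let cy : G → G := fun v => v⁻¹ * (a * v * a⁻¹)
  have hcy : ∀ v ∈ T, cy v ∈ T := fun v hv => T.mul_mem (T.inv_mem hv) (hconjT v hv)
  -- `T` is generated by commutators with `a`
  have hK0 : Subgroup.closure (cy '' (T : Set G)) = T := by
    have hle : Subgroup.closure (cy '' (T : Set G)) ≤ T := by
      rw [Subgroup.closure_le]
      rintro _ ⟨v, hv, rfl⟩
      exact hcy v hv
    by_contra hne
    have hnorm : B ≤ Subgroup.normalizer ((Subgroup.closure (cy '' (T : Set G)) : Subgroup G) : Set G) := by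
      have key : ∀ g ∈ B, ∀ c ∈ Subgroup.closure (cy '' (T : Set G)),
          g * c * g⁻¹ ∈ Subgroup.closure (cy '' (T : Set G)) := by
        intro g hg c hc
        induction hc using Subgroup.closure_induction with
        | mem z hz =>
          obtain ⟨v, hv, rfl⟩ := hz
          refine Subgroup.subset_closure ⟨g * v * g⁻¹, (Subgroup.mem_normalizer_iff.mp (hdata.norm hg) v).mp hv, ?_⟩
          have h1 : a * g = g * a := (hdata.central g hg).eq
          have h2 : g⁻¹ * a⁻¹ = a⁻¹ * g⁻¹ := by rw [← mul_inv_rev, ← mul_inv_rev, h1]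
          show (g * v * g⁻¹)⁻¹ * (a * (g * v * g⁻¹) * a⁻¹) = g * (v⁻¹ * (a * v * a⁻¹)) * g⁻¹
          calc (g * v * g⁻¹)⁻¹ * (a * (g * v * g⁻¹) * a⁻¹)
              = g * v⁻¹ * g⁻¹ * ((a * g) * v * (g⁻¹ * a⁻¹)) := by group
            _ = g * v⁻¹ * g⁻¹ * ((g * a) * v * (a⁻¹ * g⁻¹)) := by rw [h1, h2]
            _ = _ := by group
        | one => simp
        | mul x y _ _ ihx ihy =>
          convert Subgroup.mul_mem _ ihx ihy using 1
          group
        | inv x _ ihx =>
          convert Subgroup.inv_mem _ ihx using 1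
          group
      intro g hg
      rw [Subgroup.mem_normalizer_iff]
      refine fun h => ⟨key g hg h, fun hh => ?_⟩
      simpa [mul_assoc] using key g⁻¹ (inv_mem hg) _ hh
    have hfix := hdata.small _ (lt_of_le_of_ne hle hne) hnorm (cy u0) (Subgroup.subset_closure ⟨u0, hu0, rfl⟩)
    -- iterate
    have hiter : ∀ j : ℕ, a ^ j * u0 * (a ^ j)⁻¹ = u0 * cy u0 ^ j := by
      intro j
      induction j with
      | zero => simp
      | succ j ihj =>
        calc a ^ (j + 1) * u0 * (a ^ (j + 1))⁻¹ = a * (a ^ j * u0 * (a ^ j)⁻¹) * a⁻¹ := by rw [pow_succ']; group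
          _ = a * u0 * a⁻¹ * (a * cy u0 * a⁻¹) ^ j := by rw [ihj, conj_pow]; group
          _ = u0 * cy u0 * cy u0 ^ j := by rw [hfix]; simp only [cy, mul_inv_cancel_left]
          _ = u0 * cy u0 ^ (j + 1) := by rw [mul_assoc, ← pow_succ']
    have h3 := hiter 3
    rw [hdata.cube, one_mul, inv_one, mul_one, left_eq_mul] at h3
    obtain ⟨e, he⟩ := hdata.pgroupT ⟨cy u0, hcy u0 hu0⟩
    have h4 := pow_gcd_eq_one.mpr ⟨h3, (show cy u0 ^ 2 ^ e = 1 from congrArg Subtype.val he)⟩
    rw [show Nat.gcd 3 (2 ^ e) = 1 from Nat.Coprime.pow_right e (by decide), pow_one] at h4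
    apply hu0ne
    rw [show a * u0 * a⁻¹ = u0 * cy u0 by simp only [cy, mul_inv_cancel_left], h4, mul_one]
  -- commutators of `T` act centrally
  have hTT : ∀ v ∈ T, ∀ w ∈ T, a * (v * w * v⁻¹ * w⁻¹) * a⁻¹ = v * w * v⁻¹ * w⁻¹ := by
    intro v hv w hw
    have hTne : T ≠ ⊥ := fun h => hu0ne (by rw [h, Subgroup.mem_bot] at hu0; rw [hu0, mul_one, mul_inv_cancel])
    haveI : Nontrivial T := T.nontrivial_iff_ne_bot.mpr hTne
    haveI : Group.IsNilpotent T := hdata.pgroupT.isNilpotent
    have hlt : ⁅T, T⁆ < T := by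
      have h1 : (commutator T).map T.subtype = ⁅T, T⁆ := by
        rw [commutator_def, Subgroup.map_commutator, ← MonoidHom.range_eq_map, Subgroup.range_subtype]
      rw [← h1]
      have h2 := Subgroup.map_lt_map_iff_of_injective (T.subtype_injective) |>.mpr
        (Group.IsSolvable.commutator_lt_top_of_nontrivial T)
      rwa [← MonoidHom.range_eq_map, Subgroup.range_subtype] at h2
    refine hdata.small _ hlt ?_ _ (by rw [← commutatorElement_def]; exact Subgroup.commutator_mem_commutator hv hw)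
    intro g hg
    rw [Subgroup.mem_normalizer_iff]
    intro h
    have hmap : T.map (MulAut.conj g).toMonoidHom = T := by
      ext z
      rw [Subgroup.mem_map_equiv, Subgroup.mem_normalizer_iff.mp (hdata.norm hg) ((MulAut.conj g).symm z)]
      simp [mul_assoc]
    conv_rhs => rw [← (Subgroup.map_commutator T T _).trans (congrArg₂ (fun x y => ⁅x, y⁆) hmap hmap)]
    rw [Subgroup.mem_map_equiv]
    simp [mul_assoc]
  have hfixcentral : ∀ c ∈ T, (∀ t ∈ T, a * (t * c * t⁻¹) * a⁻¹ = t * c * t⁻¹) → ∀ t ∈ T, Commute c t := by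
    intro c hcT hc t ht
    rw [← hK0] at ht
    induction ht using Subgroup.closure_induction with
    | mem z hz =>
      obtain ⟨v, hv, rfl⟩ := hz
      have h1 := hc v hv
      have h2 : a * c * a⁻¹ = c := by simpa using hc 1 T.one_mem
      have h2' : a⁻¹ * c * a = c := by
        nth_rewrite 1 [← h2]
        group
      have h3 : a * v * a⁻¹ * c * (a * v * a⁻¹)⁻¹ = v * c * v⁻¹ := by
        calc a * v * a⁻¹ * c * (a * v * a⁻¹)⁻¹ = a * (v * (a⁻¹ * c * a) * v⁻¹) * a⁻¹ := by group
          _ = a * (v * c * v⁻¹) * a⁻¹ := by rw [h2']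
          _ = v * c * v⁻¹ := h1
      show c * (v⁻¹ * (a * v * a⁻¹)) = v⁻¹ * (a * v * a⁻¹) * c
      calc c * (v⁻¹ * (a * v * a⁻¹)) = v⁻¹ * (v * c * v⁻¹) * (a * v * a⁻¹) := by group
        _ = v⁻¹ * (a * v * a⁻¹ * c * (a * v * a⁻¹)⁻¹) * (a * v * a⁻¹) := by rw [h3]
        _ = v⁻¹ * (a * v * a⁻¹) * c := by group
    | one => exact Commute.one_right c
    | mul x y _ _ ihx ihy => exact ihx.mul_right ihy
    | inv x _ ihx => exact ihx.inv_right
  have hcentral : ∀ v ∈ T, ∀ w ∈ T, ∀ t ∈ T, Commute (v * w * v⁻¹ * w⁻¹) t := by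
    intro v hv w hw
    refine hfixcentral _ (T.mul_mem (T.mul_mem (T.mul_mem hv hw) (T.inv_mem hv)) (T.inv_mem hw)) fun t ht => ?_
    rw [show t * (v * w * v⁻¹ * w⁻¹) * t⁻¹ = (t * v * t⁻¹) * (t * w * t⁻¹) * (t * v * t⁻¹)⁻¹ * (t * w * t⁻¹)⁻¹ by group]
    exact hTT _ (T.mul_mem (T.mul_mem ht hv) (T.inv_mem ht)) _ (T.mul_mem (T.mul_mem ht hw) (T.inv_mem ht))
  have hfixc : ∀ u ∈ T, a * u * a⁻¹ = u → ∀ t ∈ T, Commute u t := by
    intro u hu hfix
    refine hfixcentral u hu fun t ht => ?_
    have h1 := hTT t ht u hu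
    calc a * (t * u * t⁻¹) * a⁻¹ = a * (t * u * t⁻¹ * u⁻¹) * a⁻¹ * (a * u * a⁻¹) := by group
      _ = t * u * t⁻¹ * u⁻¹ * u := by rw [h1, hfix]
      _ = t * u * t⁻¹ := by group
  -- irreducibility
  have hirr : ∀ X : Submodule K V, T ⊔ B ≤ stab ρ X → X = ⊥ ∨ X = ⊤ := by
    intro X hX
    by_contra hcon
    obtain ⟨hb, ht⟩ := not_or.mp hcon
    have hlt1 : Module.finrank K X < d := hd ▸ Submodule.finrank_lt ht
    have hlt2 : Module.finrank K (V ⧸ X) < d := by
      have h1 := Submodule.finrank_quotient_add_finrank X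
      have : 0 < Module.finrank K X := by
        rw [Nat.pos_iff_ne_zero, Ne, Submodule.finrank_eq_zero]; exact hb
      omega
    set H := stab ρ X
    have hInv : Inv ρ H X := fun m hm v hv => apply_mem_of_mem_stab hm hv
    -- transfer to an action of the whole group is not available, so use the stabiliser
    have htr : ∀ (U : Type v) [AddCommGroup U] [Module K U] [FiniteDimensional K U]
        (ρ' : H →* Module.End K U), Module.finrank K U < d →
        (∀ m : H, (∀ v, ρ (m : G) v = v) → ρ' m = 1) →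
        (∀ (m : H) (n : ℕ), (ρ (m : G) - 1) ^ n = 0 → (ρ' m - 1) ^ n = 0) →
        (∀ m m' : H, (ρ (m : G) - 1) * (ρ (m' : G) - 1) ^ 2 = 0 → (ρ' m - 1) * (ρ' m' - 1) ^ 2 = 0) →
        ∀ u ∈ T, ∀ (hm : a * u * a⁻¹ ∈ H) (hu : u ∈ H), ρ' ⟨a * u * a⁻¹, hm⟩ = ρ' ⟨u, hu⟩ := by
      intro U _ _ _ ρ' hlt _ hq hr u hu hm hu'
      by_contra hne
      have haH : a ∈ H := hX (Subgroup.mem_sup_right haB)
      let eT := Subgroup.subgroupOfEquivOfLe (le_sup_left.trans hX : T ≤ H)
      let eB := Subgroup.subgroupOfEquivOfLe (le_sup_right.trans hX : B ≤ H)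
      refine ih _ hlt H U ρ' (T.subgroupOf H) (B.subgroupOf H) ⟨a, haH⟩ rfl
        { pgroupT := hdata.pgroupT.of_equiv eT.symm
          pgroupB := hdata.pgroupB.of_equiv eB.symm
          norm := fun b hb => by
            rw [Subgroup.mem_normalizer_iff]
            exact fun h => Subgroup.mem_normalizer_iff.mp (hdata.norm hb) (h : G)
          mem := by
            have h1 : (⁅B.subgroupOf H, B.subgroupOf H⁆).map H.subtype = ⁅B, B⁆ := by
              rw [Subgroup.map_commutator, Subgroup.map_subgroupOf_eq_of_le (le_sup_right.trans hX)]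
            obtain ⟨z, hz, hza⟩ := h1.ge hdata.mem
            rwa [← show z = ⟨a, haH⟩ from Subtype.ext hza]
          central := fun b hb => Subtype.ext (hdata.central b hb).eq
          cube := Subtype.ext hdata.cube
          quad := hq _ 2 hdata.quad
          rel := fun b hb => hr _ _ (hdata.rel b hb)
          small := fun U' hU' hBU' v hv => Subtype.ext ?_
          moves := ⟨⟨u, hu'⟩, hu, fun h => hne ?_⟩ }
      · refine hdata.small (U'.map H.subtype) ?_ ?_ (v : G) (Subgroup.mem_map_of_mem _ hv)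
        · rw [← Subgroup.map_subgroupOf_eq_of_le (le_sup_left.trans hX : T ≤ H)]
          exact Subgroup.map_lt_map_iff_of_injective H.subtype_injective |>.mpr hU'
        · intro b hb
          have hbH : b ∈ H := hX (Subgroup.mem_sup_right hb)
          rw [Subgroup.mem_normalizer_iff]
          have key := Subgroup.mem_normalizer_iff.mp (hBU' (show (⟨b, hbH⟩ : H) ∈ B.subgroupOf H from hb))
          intro h
          constructor
          · rintro ⟨z, hz, rfl⟩
            exact ⟨_, (key z).mp hz, rfl⟩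
          · rintro ⟨z, hz, hzh⟩
            have hh : h ∈ H := by
              have : b * h * b⁻¹ ∈ H := hzh ▸ z.2
              simpa [mul_assoc] using H.mul_mem (H.mul_mem (H.inv_mem hbH) this) hbH
            refine ⟨⟨h, hh⟩, (key ⟨h, hh⟩).mpr ?_, rfl⟩
            rwa [← show z = (⟨b, hbH⟩ : H) * ⟨h, hh⟩ * ⟨b, hbH⟩⁻¹ from Subtype.ext hzh]
      · exact h
    have haH : a ∈ H := hX (Subgroup.mem_sup_right haB)
    have huH : u0 ∈ H := hX (Subgroup.mem_sup_left hu0)
    have hmH : a * u0 * a⁻¹ ∈ H := H.mul_mem (H.mul_mem haH huH) (H.inv_mem haH)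
    have hsub := htr X (restr ρ H X hInv) hlt1 (fun m hm => LinearMap.ext fun w => Subtype.ext (hm w))
      (fun m n h => LinearMap.ext fun w => Subtype.ext (by rw [rho_pow_sub_one_restr, h]; rfl))
      (fun m m' h => LinearMap.ext fun w => Subtype.ext (by
        have := LinearMap.congr_fun h (w : V)
        rw [Module.End.mul_apply] at this ⊢
        have h1 := rho_pow_sub_one_restr hInv m' 2 w
        have h2 := fun z => rho_pow_sub_one_restr hInv m 1 z
        simp only [pow_one] at h2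
        rw [h2, h1]
        exact this)) u0 hu0 hmH huH
    have hquot := htr (V ⧸ X) (quot ρ H X hInv) hlt2 (fun m hm => LinearMap.ext fun w => by
        obtain ⟨v, rfl⟩ := Submodule.Quotient.mk_surjective X w
        rw [quot_mk, hm v]; rfl)
      (fun m n h => LinearMap.ext fun w => by
        obtain ⟨v, rfl⟩ := Submodule.Quotient.mk_surjective X w
        rw [rho_pow_sub_one_quot, h]; rfl)
      (fun m m' h => LinearMap.ext fun w => by
        obtain ⟨v, rfl⟩ := Submodule.Quotient.mk_surjective X w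
        have := congrArg (Submodule.Quotient.mk (p := X)) (LinearMap.congr_fun h v)
        rw [Module.End.mul_apply, rho_pow_sub_one_quot]
        exact this) u0 hu0 hmH huH
    apply hu0ne
    set c := cy u0 with hc
    have hcT : c ∈ T := hcy u0 hu0
    have hA1 : ∀ w ∈ X, ρ c w = w := by
      intro w hw
      have := congrArg Subtype.val (LinearMap.congr_fun hsub ⟨w, hw⟩)
      rw [restr_coe, restr_coe] at this
      rw [hc, rho_mul, show ρ (a * u0 * a⁻¹) w = ρ u0 w from this, rho_inv_apply]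
    have hA2 : ∀ v, ρ c v - v ∈ X := by
      intro v
      have := LinearMap.congr_fun hquot (Submodule.Quotient.mk v)
      rw [quot_mk, quot_mk, Submodule.Quotient.eq] at this
      have h3 := apply_mem_of_mem_stab (hX (Subgroup.mem_sup_left (T.inv_mem hu0))) this
      rw [map_sub, rho_inv_apply] at h3
      rw [hc, rho_mul]
      exact h3
    obtain ⟨e, he⟩ := hdata.pgroupT ⟨c, hcT⟩
    have hone : ρ c = 1 := by
      refine eq_one_of_pow_prime_pow (q := 2) (e := e)
        (fun h => absurd ((CharP.cast_eq_zero_iff K 3 2).mp h) (by decide)) (LinearMap.ext fun v => ?_) ?_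
      · show ρ c (ρ c v - v) - (ρ c v - v) = 0
        rw [hA1 _ (hA2 v), sub_self]
      · rw [← map_pow, show c ^ 2 ^ e = 1 from congrArg Subtype.val he, map_one]
    rw [show a * u0 * a⁻¹ = u0 * c by rw [hc]; simp only [cy, mul_inv_cancel_left], map_mul, hone, mul_one]
  haveI : Nontrivial V := by
    by_contra h
    rw [not_nontrivial_iff_subsingleton] at h
    exact hu0ne (LinearMap.ext fun v => Subsingleton.elim _ _)
  set Ta := T ⊔ Subgroup.zpowers a with hTa
  obtain ⟨W, hW⟩ := exists_simpleSub ρ Ta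
  haveI := nontrivial_simpleSub hW
  have hWT : Inv ρ T W := fun m hm => hW.2.1 m (Subgroup.mem_sup_left hm)
  have hWa : ∀ w ∈ W, ρ a w ∈ W := hW.2.1 a (Subgroup.mem_sup_right (Subgroup.mem_zpowers a))
  -- `a` moves the action of `T` on `W`
  obtain ⟨u1, hu1, w1, hw1, hne1⟩ : ∃ u ∈ T, ∃ w ∈ W, ρ (a * u * a⁻¹) w ≠ ρ u w := by
    by_contra hall
    push Not at hall
    let X : Submodule K V :=
      { carrier := {v | ∀ u ∈ T, ρ (a * u * a⁻¹) v = ρ u v}
        add_mem' := fun hv hv' u hu => by rw [map_add, map_add, hv u hu, hv' u hu]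
        zero_mem' := fun u _ => by rw [map_zero, map_zero]
        smul_mem' := fun c v hv u hu => by rw [map_smul, map_smul, hv u hu] }
    have hXinv : T ⊔ B ≤ stab ρ X := by
      refine sup_le (fun t ht => mem_stab fun v hv u hu => ?_) (fun b hb => mem_stab fun v hv u hu => ?_)
      · have hat : a⁻¹ * t * a ∈ T := by
          simpa using (Subgroup.mem_normalizer_iff.mp (Subgroup.inv_mem _ haT) t).mp ht
        have h1 : ρ t v = ρ (a⁻¹ * t * a) v := by
          have := hv _ hat
          rwa [show a * (a⁻¹ * t * a) * a⁻¹ = t by group] at this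
        rw [← rho_mul, ← rho_mul, show a * u * a⁻¹ * t = a * (u * (a⁻¹ * t * a)) * a⁻¹ by group,
          hv _ (T.mul_mem hu hat), rho_mul (ρ := ρ) u, rho_mul (ρ := ρ) u, ← h1]
      · have hbu : b⁻¹ * u * b ∈ T := by
          simpa using (Subgroup.mem_normalizer_iff.mp (hdata.norm (inv_mem hb)) u).mp hu
        have hab : a * b = b * a := (hdata.central b hb).eq
        have hab' : a⁻¹ * b = b * a⁻¹ := ((hdata.central b hb).inv_left).eq
        rw [← rho_mul, ← rho_mul, show a * u * a⁻¹ * b = b * (a * (b⁻¹ * u * b) * a⁻¹) by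
          calc a * u * a⁻¹ * b = a * u * (a⁻¹ * b) := by group
            _ = (a * b) * (b⁻¹ * u * b) * a⁻¹ := by rw [hab']; group
            _ = (b * a) * (b⁻¹ * u * b) * a⁻¹ := by rw [hab]
            _ = _ := by group, rho_mul, hv _ hbu, ← rho_mul, show b * (b⁻¹ * u * b) = u * b by group]
    rcases hirr X hXinv with h | h
    · refine hW.1 ((Submodule.eq_bot_iff W).mpr fun w hw => ?_)
      exact (Submodule.mem_bot K).mp (h ▸ (show w ∈ X from fun u hu => hall u hu w hw))
    · exact hu0ne (LinearMap.ext fun v => (h.ge (Submodule.mem_top : v ∈ (⊤ : Submodule K V))) u0 hu0)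
  -- `T` is irreducible on `W`
  have hquad : ∀ w : V, ρ a (ρ a w - w) = ρ a w - w := by
    intro w
    have := LinearMap.congr_fun hdata.quad w
    rw [sq] at this
    exact sub_eq_zero.mp this
  let ρW := restr ρ Ta W hW.2.1
  let aW : Ta := ⟨a, Subgroup.mem_sup_right (Subgroup.mem_zpowers a)⟩
  let TW := T.subgroupOf Ta
  have hTWn : aW ∈ Subgroup.normalizer (TW : Set Ta) := by
    rw [Subgroup.mem_normalizer_iff]
    exact fun h => Subgroup.mem_normalizer_iff.mp haT (h : G)
  have haW3 : aW ^ 3 = 1 := Subtype.ext hdata.cube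
  have hquadW : (ρW aW - 1) ^ 2 = 0 :=
    LinearMap.ext fun w => Subtype.ext (by rw [rho_pow_sub_one_restr, hdata.quad]; rfl)
  have hirrW : Irred ρW TW := by
    obtain ⟨k, U, hk, hk3, hU, hUfix, hbij⟩ := clifford (ρ := ρW) hTWn (N := 3) (by norm_num)
      (by rw [haW3]; exact one_mem _) (fun X hX hXa => by
        have hXTa : Inv ρ Ta (X.map W.subtype) := by
          rw [inv_iff_le_stab, hTa]
          refine sup_le (fun t ht => mem_stab ?_) (Subgroup.zpowers_le.mpr (mem_stab ?_))
          · rintro _ ⟨w, hw, rfl⟩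
            exact ⟨_, hX ⟨t, Subgroup.mem_sup_left ht⟩ ht w hw, rfl⟩
          · rintro _ ⟨w, hw, rfl⟩
            exact ⟨_, hXa w hw, rfl⟩
        rcases hW.2.2 _ (Submodule.map_subtype_le W X) hXTa with h | h
        · left
          refine Submodule.map_injective_of_injective W.injective_subtype ?_
          rw [h, Submodule.map_bot]
        · right
          refine Submodule.map_injective_of_injective W.injective_subtype ?_
          rw [h, Submodule.map_subtype_top])
    rcases (Nat.dvd_prime Nat.prime_three).mp hk3 with rfl | rfl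
    · intro X hX
      have hUtop : U = ⊤ := by
        rw [eq_top_iff]
        intro v _
        obtain ⟨c, rfl⟩ := hbij.2 v
        rw [translateSum_apply]
        refine Submodule.sum_mem _ fun i _ => ?_
        have hi : (i : ℕ) = 0 := by omega
        rw [hi, pow_zero, map_one]
        exact SetLike.coe_mem _
      rcases hU.2.2 X (hUtop ▸ le_top) hX with h | h
      · exact Or.inl h
      · exact Or.inr (h.trans hUtop)
    · exfalso
      haveI := nontrivial_simpleSub hU
      obtain ⟨⟨u, hu⟩, hune⟩ := exists_ne (0 : U)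
      have h1 := LinearMap.congr_fun hquadW u
      have h2 := rho_sub_one_pow_pred (p := 3) (ρW aW) 1
      rw [pow_one, show 3 - 1 = 2 from rfl] at h2
      rw [h2, LinearMap.sum_apply, ← Fin.sum_univ_eq_sum_range (fun i => (ρW aW ^ i) u)] at h1
      have h3 : translateSum ρW aW 3 U (fun _ => ⟨u, hu⟩) = translateSum ρW aW 3 U 0 := by
        rw [map_zero, translateSum_apply]
        simpa only [map_pow, LinearMap.zero_apply] using h1
      exact hune (congrFun (hbij.1 h3) 0)
  have hTWp : IsPGroup 2 TW :=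
    hdata.pgroupT.of_equiv (Subgroup.subgroupOfEquivOfLe (le_sup_left : T ≤ Ta)).symm
  obtain ⟨j, hj⟩ := finrank_eq_prime_pow ρW TW hTWp hirrW
  have hscal : ∀ u ∈ T, (∀ t ∈ T, Commute u t) → ∃ s : K, ∀ w ∈ W, ρ u w = s • w := by
    intro u hu hc
    rw [← isScalar_restr_iff hW.2.1 ⟨u, Subgroup.mem_sup_left hu⟩]
    exact schur hirrW _ fun t ht => by
      rw [← map_mul, ← map_mul]
      exact congrArg ρW (Subtype.ext (hc t ht).eq.symm)
  have hsr : ∀ i, 0 < i → i < 3 ^ 1 → ∀ v ∈ TW, aW ^ i * v * (aW ^ i)⁻¹ = v → IsScalar ρW v := by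
    intro i hi hi3 v hv hfix
    rw [pow_one] at hi3
    have hfix' : a ^ i * (v : G) * (a ^ i)⁻¹ = v := congrArg Subtype.val hfix
    have hfa : a * (v : G) * a⁻¹ = v := by
      obtain rfl | rfl : i = 1 ∨ i = 2 := by omega
      · rwa [pow_one] at hfix'
      · have ha2 : a ^ 2 = a⁻¹ := eq_inv_of_mul_eq_one_left (by rw [← pow_succ]; exact hdata.cube)
        rw [ha2, inv_inv] at hfix'
        conv_lhs => rw [← hfix']
        group
    rw [isScalar_restr_iff hW.2.1]
    exact hscal _ hv (hfixc _ hv hfa)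
  have hQK : (Nat.card TW : K) ≠ 0 := by
    obtain ⟨e, he⟩ := IsPGroup.iff_card.mp hTWp
    rw [he, Nat.cast_pow]
    exact pow_ne_zero e fun h => absurd ((CharP.cast_eq_zero_iff K 3 2).mp h) (by decide)
  have hmain := core (p := 3) (n := 1) one_ne_zero ρW TW hQK hirrW aW hTWn (by rw [pow_one]; exact haW3) hsr
  obtain ⟨c, hcsum, hcS⟩ := flag_bound (ρW aW - 1) 2 hquadW
  have hcomm : commutant (ρW aW - 1) = commutant (ρW aW) := by
    ext f; rw [mem_commutant, mem_commutant, sub_mul, mul_sub, one_mul, mul_one, sub_left_inj]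
  rw [hcomm] at hcS
  have hD2 : Module.finrank K W = 2 := by
    have hD : 2 ≤ Module.finrank K W := by
      by_contra hlt
      have h1 : Module.finrank K W = 1 := by
        have := Module.finrank_pos (R := K) (M := W); omega
      obtain ⟨z, hz⟩ := exists_ne (0 : W)
      have hspan := (finrank_eq_one_iff_of_nonzero' z hz).mp h1
      have hall : ∀ X Y : Module.End K W, X * Y = Y * X := fun X Y => LinearMap.ext fun t => by
        obtain ⟨p', hp'⟩ := hspan (X z)
        obtain ⟨q', hq'⟩ := hspan (Y z)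
        obtain ⟨r', rfl⟩ := hspan t
        simp only [Module.End.mul_apply, map_smul, ← hp', ← hq', smul_smul, mul_comm]
      have h2 : ρW (aW * ⟨u1, Subgroup.mem_sup_left hu1⟩ * aW⁻¹) = ρW ⟨u1, Subgroup.mem_sup_left hu1⟩ := by
        rw [map_mul, map_mul, hall (ρW aW), mul_assoc, rho_mul_inv_self, mul_one]
      exact hne1 (congrArg Subtype.val (LinearMap.congr_fun h2 ⟨w1, hw1⟩))
    have hnd : ¬ 3 ^ 1 ∣ Module.finrank K W := by
      rw [hj, pow_one]
      intro h
      exact absurd (Nat.prime_three.dvd_of_dvd_pow h) (by decide)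
    rcases numeric_bound c (by norm_num) hnd hD hcsum hcS hmain with h | ⟨-, h⟩
    · norm_num at h
    · norm_num at h; omega
  -- the scalars on `W`
  let M : Subgroup G :=
    { carrier := {u | u ∈ T ∧ ∃ s : K, ∀ w ∈ W, ρ u w = s • w}
      one_mem' := ⟨T.one_mem, 1, fun w _ => by rw [map_one, Module.End.one_apply, one_smul]⟩
      mul_mem' := by
        rintro x y ⟨hx, s, hs⟩ ⟨hy, t, ht⟩
        exact ⟨T.mul_mem hx hy, t * s, fun w hw => by rw [rho_mul, ht w hw, map_smul, hs w hw, smul_smul]⟩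
      inv_mem' := by
        rintro x ⟨hx, s, hs⟩
        refine ⟨T.inv_mem hx, s⁻¹, fun w hw => ?_⟩
        apply rho_injective (ρ := ρ) x
        rw [rho_apply_inv, map_smul, hs w hw]
        rcases eq_or_ne s 0 with rfl | hs0
        · obtain ⟨z, hz⟩ := exists_ne (0 : W)
          exfalso
          apply hz
          have := hs z z.2
          rw [zero_smul] at this
          exact Subtype.ext ((rho_injective (ρ := ρ) x) (by rw [this, ZeroMemClass.coe_zero, map_zero]))
        · rw [inv_smul_smul₀ hs0] }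
  by_cases hMB : ∀ b ∈ B, ∀ m ∈ M, b * m * b⁻¹ ∈ M
  · -- `B` acts on at most four cosets
    have hMn : (M.subgroupOf T).Normal := ⟨fun m hm t => by
      obtain ⟨s, hs⟩ : ∃ s : K, ∀ w ∈ W, ρ (m : G) w = s • w := hm.2
      refine ⟨(t * m * t⁻¹).2, s, fun w hw => ?_⟩
      show ρ ((t : G) * (m : G) * (t : G)⁻¹) w = s • w
      rw [rho_mul, rho_mul, hs _ (hWT _ (inv_mem t.2) w hw), map_smul, rho_apply_inv]⟩
    have hind : Nat.card (T ⧸ M.subgroupOf T) ≤ 4 := by
      haveI : Fintype (T ⧸ M.subgroupOf T) := Fintype.ofFinite _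
      let rep : T ⧸ M.subgroupOf T → Module.End K W := fun q => ρW ⟨(q.out : G), Subgroup.mem_sup_left q.out.2⟩
      have htr : ∀ u : G, (hu : u ∈ T) → u ∉ M →
          LinearMap.trace K W (ρW ⟨u, Subgroup.mem_sup_left hu⟩) = 0 := by
        intro u hu hnM
        set uu : Ta := ⟨u, Subgroup.mem_sup_left hu⟩
        obtain ⟨t, ht, hne⟩ : ∃ t : Ta, t ∈ TW ∧ ρW t * ρW uu ≠ ρW uu * ρW t := by
          by_contra hall
          push Not at hall
          exact hnM ⟨hu, (isScalar_restr_iff hW.2.1 uu).mp (schur hirrW _ hall)⟩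
        replace ht : (t : G) ∈ T := ht
        obtain ⟨s, hs⟩ := hscal _ (T.mul_mem (T.mul_mem (T.mul_mem ht hu) (T.inv_mem ht)) (T.inv_mem hu))
          (hcentral _ ht u hu)
        have hcs : ρW t * ρW uu = s • (ρW uu * ρW t) := LinearMap.ext fun w => Subtype.ext (by
          show ρ (t : G) (ρ u (w : V)) = s • ρ u (ρ (t : G) (w : V))
          rw [← rho_mul, show (t : G) * u = (t : G) * u * (t : G)⁻¹ * u⁻¹ * (u * t) by group, rho_mul,
            hs _ (hWT _ (T.mul_mem hu (show (t : G) ∈ T from ht)) _ w.2), rho_mul])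
        have h1 : LinearMap.trace K W (ρW uu) = s * LinearMap.trace K W (ρW uu) := by
          have h2 := LinearMap.trace_mul_comm K (ρW t * ρW uu) (ρW t⁻¹)
          rw [← mul_assoc, rho_inv_mul_self, one_mul] at h2
          rw [hcs, smul_mul_assoc, mul_assoc, rho_mul_inv_self, mul_one, map_smul, smul_eq_mul] at h2
          exact h2.symm
        have hs1 : s ≠ 1 := fun h => hne (by rw [hcs, h, one_smul])
        have h2 : (s - 1) * LinearMap.trace K W (ρW uu) = 0 := by rw [sub_mul, one_mul, ← h1, sub_self]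
        exact (mul_eq_zero.mp h2).resolve_left (sub_ne_zero.mpr hs1)
      have hli : LinearIndependent K rep := by
        rw [Fintype.linearIndependent_iff]
        intro f hf q
        have h1 := congrArg (fun A : Module.End K W =>
          LinearMap.trace K W (A * ρW (⟨(q.out : G), Subgroup.mem_sup_left q.out.2⟩ : Ta)⁻¹)) hf
        simp only [Finset.sum_mul, map_sum, smul_mul_assoc, map_smul, zero_mul, map_zero, rep, ← map_mul] at h1
        rw [Finset.sum_eq_single q] at h1
        · rw [mul_inv_cancel, map_one, LinearMap.trace_one, hD2, smul_eq_mul] at h1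
          exact (mul_eq_zero.mp h1).resolve_right fun h => absurd ((CharP.cast_eq_zero_iff K 3 2).mp h) (by decide)
        · intro r _ hr
          have h2 : (r.out : G) * (q.out : G)⁻¹ ∉ M := fun hm => hr (by
            rw [← QuotientGroup.out_eq' r, ← QuotientGroup.out_eq' q, QuotientGroup.eq]
            have h5 : r.out * q.out⁻¹ ∈ M.subgroupOf T := hm
            have h6 := hMn.conj_mem _ (inv_mem h5) r.out⁻¹
            simpa [mul_assoc] using h6)
          have h3 := htr _ (T.mul_mem r.out.2 (T.inv_mem q.out.2)) h2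
          rw [smul_eq_mul]
          refine mul_eq_zero_of_right _ ?_
          exact h3
        · simp
      have h1 := hli.fintype_card_le_finrank
      rw [Module.finrank_linearMap, hD2, ← Nat.card_eq_fintype_card] at h1
      exact h1
    let perm : B →* Equiv.Perm (T ⧸ M.subgroupOf T) :=
      { toFun := fun b =>
          (QuotientGroup.congr (M.subgroupOf T) (M.subgroupOf T) (T.normalizerMonoidHom ⟨b, hdata.norm b.2⟩) (by
            ext z
            constructor
            · rintro ⟨y, hy, rfl⟩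
              exact hMB b b.2 _ hy
            · intro hz
              have := hMB (b : G)⁻¹ (inv_mem b.2) _ hz
              rw [inv_inv] at this
              refine ⟨⟨(b : G)⁻¹ * (z : G) * b, this.1⟩, this, Subtype.ext ?_⟩
              show (b : G) * ((b : G)⁻¹ * (z : G) * b) * (b : G)⁻¹ = z
              group)).toEquiv
        map_one' := Equiv.ext fun z => QuotientGroup.induction_on z fun y => by
          show ((T.normalizerMonoidHom ⟨((1 : B) : G), _⟩ y : T) : T ⧸ M.subgroupOf T) = (y : T ⧸ M.subgroupOf T)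
          congr 1
          exact Subtype.ext (by show (1 : G) * (y : G) * (1 : G)⁻¹ = y; group)
        map_mul' := fun b b' => Equiv.ext fun z => QuotientGroup.induction_on z fun y => by
          show ((T.normalizerMonoidHom ⟨((b * b' : B) : G), _⟩ y : T) : T ⧸ M.subgroupOf T) =
            ((T.normalizerMonoidHom ⟨(b : G), _⟩ (T.normalizerMonoidHom ⟨(b' : G), _⟩ y) : T) : T ⧸ M.subgroupOf T)
          congr 1
          exact Subtype.ext (by
            show (b : G) * b' * (y : G) * ((b : G) * b')⁻¹ = b * (b' * y * (b' : G)⁻¹) * (b : G)⁻¹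
            group) }
    have hrng : IsCyclic perm.range ∨ Subsingleton perm.range := by
      obtain ⟨e, he⟩ := IsPGroup.iff_card.mp (hdata.pgroupB.of_surjective perm.rangeRestrict perm.rangeRestrict_surjective)
      haveI : Fintype (T ⧸ M.subgroupOf T) := Fintype.ofFinite _
      have h1 : Nat.card perm.range ∣ Nat.factorial (Nat.card (T ⧸ M.subgroupOf T)) := by
        rw [← Nat.card_perm]; exact Subgroup.card_subgroup_dvd_card _
      have h24 : 3 ^ e ∣ 24 := by
        rw [← he]
        exact h1.trans (Nat.factorial_dvd_factorial hind)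
      have he1 : e ≤ 1 := by
        by_contra hlt
        have h9 : 3 ^ 2 ∣ 24 := (pow_dvd_pow 3 (show 2 ≤ e by omega)).trans h24
        norm_num at h9
      rcases Nat.le_one_iff_eq_zero_or_eq_one.mp he1 with rfl | rfl
      · exact Or.inr (Finite.card_le_one_iff_subsingleton.mp (by rw [he, pow_zero]))
      · exact Or.inl (isCyclic_of_prime_card (p := 3) (by rw [he, pow_one]))
    have hpa : perm ⟨a, haB⟩ = 1 := by
      have h1 : (⟨a, haB⟩ : B) ∈ commutator B := by
        have h2 : (commutator B).map B.subtype = ⁅B, B⁆ := by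
          rw [commutator_def, Subgroup.map_commutator, ← MonoidHom.range_eq_map, Subgroup.range_subtype]
        obtain ⟨z, hz, hza⟩ := h2.ge hdata.mem
        rwa [← show z = ⟨a, haB⟩ from Subtype.ext hza]
      have h3 : commutator B ≤ perm.ker := by
        rw [commutator_def, Subgroup.commutator_le]
        intro x _ y _
        rw [MonoidHom.mem_ker, map_commutatorElement, commutatorElement_eq_one_iff_commute]
        have hc : ∀ p q : perm.range, p * q = q * p := by
          rcases hrng with h | h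
          · exact fun p q => IsCyclic.commGroup.mul_comm p q
          · exact fun p q => Subsingleton.elim _ _
        exact congrArg Subtype.val (hc ⟨_, x, rfl⟩ ⟨_, y, rfl⟩)
      exact h3 h1
    have hle : T ≤ M := by
      rw [← hK0, Subgroup.closure_le]
      rintro _ ⟨v, hv, rfl⟩
      have h1 := Equiv.congr_fun hpa ((⟨v, hv⟩ : T) : T ⧸ M.subgroupOf T)
      have h2 := QuotientGroup.eq.mp (show ((⟨v, hv⟩ : T) : T ⧸ M.subgroupOf T) = ((⟨a * v * a⁻¹, hconjT v hv⟩ : T) : T ⧸ M.subgroupOf T) from h1.symm)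
      exact h2
    obtain ⟨s, hs⟩ := (hle hu1).2
    obtain ⟨s', hs'⟩ := (hle (hconjT u1 hu1)).2
    -- both act as scalars, and conjugate scalars agree
    apply hne1
    have hss : ∀ w ∈ W, ρ (a * u1 * a⁻¹) w = s • w := fun w hw => by
      have ha' : ρ a⁻¹ w ∈ W := hW.2.1 _ (Subgroup.inv_mem _ (Subgroup.mem_sup_right (Subgroup.mem_zpowers a))) w hw
      rw [rho_mul, rho_mul, hs _ ha', map_smul, rho_apply_inv]
    rw [hss w1 hw1, hs w1 hw1]
  · -- three independent translates
    push Not at hMB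
    obtain ⟨b, hb, m, hm, hbm⟩ := hMB
    apply hne1
    have hTs : SimpleSub ρ T W := by
      refine ⟨hW.1, hWT, fun X hX hXi => ?_⟩
      rcases hirrW (X.comap W.subtype) (fun t ht v hv => hXi t ht v hv) with h | h
      · left
        rw [← Submodule.map_comap_eq_self (le_trans hX W.range_subtype.ge), h, Submodule.map_bot]
      · right
        rw [← Submodule.map_comap_eq_self (le_trans hX W.range_subtype.ge), h, Submodule.map_subtype_top]
    have hbT : ∀ i : ℕ, b ^ i ∈ Subgroup.normalizer (T : Set G) := fun i => Subgroup.pow_mem _ (hdata.norm hb) i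
    let Mi : ℕ → Set G := fun i => {u | u ∈ T ∧ ∃ s : K, ∀ w ∈ W.map (ρ (b ^ i)), ρ u w = s • w}
    have hMi : ∀ i u, u ∈ Mi i ↔ (b ^ i)⁻¹ * u * b ^ i ∈ M := by
      intro i u
      constructor
      · rintro ⟨hu, s, hs⟩
        refine ⟨by simpa using (Subgroup.mem_normalizer_iff.mp (Subgroup.inv_mem _ (hbT i)) u).mp hu, s, fun w hw => ?_⟩
        rw [rho_mul, rho_mul, hs _ (Submodule.mem_map_of_mem hw), map_smul, rho_inv_apply]
      · rintro ⟨hu, s, hs⟩
        refine ⟨?_, s, ?_⟩
        · have h := (Subgroup.mem_normalizer_iff.mp (hbT i) _).mp hu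
          simpa [mul_assoc] using h
        · rintro _ ⟨w, hw, rfl⟩
          have h1 := congrArg (ρ (b ^ i)) (hs w hw)
          rw [map_smul, ← rho_mul] at h1
          rw [← rho_mul, ← h1]
          congr 2
          group
    have hiso : ∀ i j, IsoTo ρ T (W.map (ρ (b ^ i))) (W.map (ρ (b ^ j))) → Mi i ⊆ Mi j := by
      rintro i j ⟨f, hf, hfr, hfe⟩ u ⟨hu, s, hs⟩
      refine ⟨hu, s, fun w hw => ?_⟩
      obtain ⟨x, rfl⟩ : w ∈ LinearMap.range f := hfr ▸ hw
      have hmem : ρ u (x : V) ∈ W.map (ρ (b ^ i)) := inv_map (hbT i) hWT u hu _ x.2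
      rw [← hfe u hu x hmem, show (⟨ρ u (x : V), hmem⟩ : W.map (ρ (b ^ i))) = s • x from Subtype.ext (hs x x.2), map_smul]
    have hne_ij : ∀ i j, i < j → j ≤ 2 → ¬ IsoTo ρ T (W.map (ρ (b ^ i))) (W.map (ρ (b ^ j))) ∧
        ¬ IsoTo ρ T (W.map (ρ (b ^ j))) (W.map (ρ (b ^ i))) := by
      intro i j hij hj2
      have key : ∀ e : ℕ, (e = 1 ∨ e = 2) →
          (∀ u ∈ M, b ^ e * u * (b ^ e)⁻¹ ∈ M) → False := by
        intro e he h
        obtain ⟨f, hf⟩ := hdata.pgroupB ⟨b, hb⟩
        have hbf : b ^ 3 ^ f = 1 := congrArg Subtype.val hf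
        have hall : ∀ l : ℕ, ∀ u ∈ M, b ^ (e * l) * u * (b ^ (e * l))⁻¹ ∈ M := by
          intro l
          induction l with
          | zero => intro u hu; simpa using hu
          | succ l ihl =>
            intro u hu
            rw [show b ^ (e * (l + 1)) * u * (b ^ (e * (l + 1)))⁻¹ = b ^ e * (b ^ (e * l) * u * (b ^ (e * l))⁻¹) * (b ^ e)⁻¹ by
              rw [mul_add, mul_one, add_comm, pow_add]; group]
            exact h _ (ihl u hu)
        rcases he with rfl | rfl
        · exact hbm (by simpa using hall 1 m hm)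
        · obtain ⟨g, hg⟩ := (show Odd (3 ^ f) from Odd.pow (by decide))
          have h2 := hall (g + 1) m hm
          rw [show 2 * (g + 1) = 3 ^ f + 1 by omega, pow_succ, hbf, one_mul] at h2
          exact hbm h2
      have hback : ∀ u, u ∈ M ↔ b ^ i * u * (b ^ i)⁻¹ ∈ Mi i := fun u => by
        rw [hMi]
        group
      constructor
      · intro h
        refine key (j - i) (by omega) fun u hu => ?_
        have hsub := hiso i j h
        -- `M_i ⊆ M_j` gives invariance under the inverse shift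
        have hinvshift : ∀ v ∈ M, (b ^ (j - i))⁻¹ * v * b ^ (j - i) ∈ M := by
          intro v hv
          have h3 := (hMi j _).mp (hsub ((hback v).mp hv))
          obtain ⟨d', rfl⟩ := Nat.exists_eq_add_of_le hij.le
          rw [Nat.add_sub_cancel_left]
          rw [show (b ^ (i + d'))⁻¹ * (b ^ i * v * (b ^ i)⁻¹) * b ^ (i + d') = (b ^ d')⁻¹ * v * b ^ d' by
            rw [pow_add]; group] at h3
          exact h3
        obtain ⟨f', hf'⟩ := hdata.pgroupB ⟨b, hb⟩
        have hbf : b ^ 3 ^ f' = 1 := congrArg Subtype.val hf'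
        have hpow : ∀ l : ℕ, ((b ^ (j - i)) ^ l)⁻¹ * u * (b ^ (j - i)) ^ l ∈ M := by
          intro l
          induction l with
          | zero => simpa using hu
          | succ l ihl =>
            rw [show ((b ^ (j - i)) ^ (l + 1))⁻¹ * u * (b ^ (j - i)) ^ (l + 1) =
              (b ^ (j - i))⁻¹ * (((b ^ (j - i)) ^ l)⁻¹ * u * (b ^ (j - i)) ^ l) * b ^ (j - i) by rw [pow_succ]; group]
            exact hinvshift _ ihl
        have h4 := hpow (3 ^ f' - 1)
        have hone : (b ^ (j - i)) ^ (3 ^ f' - 1) = (b ^ (j - i))⁻¹ := eq_inv_of_mul_eq_one_left (by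
          rw [← pow_succ, Nat.sub_add_cancel (Nat.one_le_pow _ _ (by norm_num)), ← pow_mul, mul_comm, pow_mul, hbf,
            one_pow])
        rwa [hone, inv_inv] at h4
      · intro h
        refine key (j - i) (by omega) fun u hu => ?_
        have hsub := hiso j i h
        have h1 : b ^ j * u * (b ^ j)⁻¹ ∈ Mi j := (hMi j _).mpr (by
          rw [show (b ^ j)⁻¹ * (b ^ j * u * (b ^ j)⁻¹) * b ^ j = u by group]; exact hu)
        have h3 := (hMi i _).mp (hsub h1)
        obtain ⟨d', rfl⟩ := Nat.exists_eq_add_of_le hij.le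
        rw [Nat.add_sub_cancel_left]
        rw [show (b ^ i)⁻¹ * (b ^ (i + d') * u * (b ^ (i + d'))⁻¹) * b ^ i = b ^ d' * u * (b ^ d')⁻¹ by
          rw [pow_add]; group] at h3
        exact h3
    have hS : ∀ i, SimpleSub ρ T (W.map (ρ (b ^ i))) := fun i => hTs.map (hbT i)
    have hamap : ∀ (i : ℕ) (w : V), w ∈ W.map (ρ (b ^ i)) → ρ a w - w ∈ W.map (ρ (b ^ i)) := by
      rintro i _ ⟨w, hw, rfl⟩
      refine ⟨ρ a w - w, W.sub_mem (hWa w hw) hw, ?_⟩
      rw [map_sub, ← rho_mul, ← rho_mul, ((hdata.central b hb).pow_right i).eq]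
    have htrivial : ∀ w ∈ W, ρ a w = w := by
      intro w hw
      have h := LinearMap.congr_fun (hdata.rel b hb) w
      rw [sq, Module.End.mul_apply, Module.End.mul_apply] at h
      simp only [LinearMap.sub_apply, Module.End.one_apply, map_sub, LinearMap.zero_apply] at h
      have m0 : ρ a w - w ∈ W.map (ρ (b ^ 0)) := hamap 0 w (by rw [pow_zero, map_rho_one]; exact hw)
      have m1 : ρ a (ρ (b ^ 1) w) - ρ (b ^ 1) w ∈ W.map (ρ (b ^ 1)) := hamap 1 _ (Submodule.mem_map_of_mem hw)
      have m2 : ρ a (ρ (b ^ 2) w) - ρ (b ^ 2) w ∈ W.map (ρ (b ^ 2)) := hamap 2 _ (Submodule.mem_map_of_mem hw)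
      refine sub_eq_zero.mp (eq_zero_of_three (hS 0) (hS 1) (hS 2) (hne_ij 0 1 (by norm_num) (by norm_num)).2
        (hne_ij 0 2 (by norm_num) (by norm_num)).1 (hne_ij 1 2 (by norm_num) (by norm_num)).1
        m0 ((W.map (ρ (b ^ 1))).neg_mem ((W.map (ρ (b ^ 1))).add_mem m1 m1)) m2 ?_)
      rw [← h, pow_one, sq b, rho_mul]
      abel
    have hfix1 : ρ a⁻¹ w1 = w1 := by
      conv_lhs => rw [← htrivial w1 hw1, rho_inv_apply]
    rw [rho_mul, rho_mul, hfix1, htrivial _ (hWT u1 hu1 w1 hw1)]

/-- There is no such configuration over any field of characteristic three. -/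
theorem quadratic_false [Finite G] [CharP K 3] [FiniteDimensional K V] {ρ : G →* Module.End K V} {T B : Subgroup G}
    {a : G} (h : QuadraticData ρ T B a) : False := by
  haveI : CharP (AlgebraicClosure K) 3 := charP_of_injective_algebraMap (algebraMap K _).injective 3
  obtain ⟨D, φ, hφ⟩ := exists_extendScalars (K := K) (V := V) (AlgebraicClosure K)
  obtain ⟨u, hu, hune⟩ := h.moves
  refine quadratic_false_aux _ G (Fin D → AlgebraicClosure K) (φ.toMonoidHom.comp ρ) T B a rfl
    { pgroupT := h.pgroupT, pgroupB := h.pgroupB, norm := h.norm, mem := h.mem, central := h.central, cube := h.cube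
      quad := ?_, rel := fun b hb => ?_, small := h.small, moves := ⟨u, hu, fun e => hune (hφ e)⟩ }
  · show (φ (ρ a) - 1) ^ 2 = 0
    rw [← map_one φ, ← map_sub, ← map_pow, h.quad, map_zero]
  · show (φ (ρ a) - 1) * (φ (ρ b) - 1) ^ 2 = 0
    rw [← map_one φ, ← map_sub, ← map_sub, ← map_pow, ← map_mul, h.rel b hb, map_zero]

end Cfsg.Agent.Lib.HallHigman
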